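import Cfsg.Agent.H989.Fx.OmE

/-!
# S5719, `N = 8`: the centralizer of a long `SL₂` in `E Q` (helper887)

`cent1` : if `g ∈ E Q` commutes with `h.rhoE M` for all `M`, then `g` acts on the 4-space as `h.swap.rhoE N` for some `N`.
-/

set_option autoImplicit false
set_option linter.unusedSimpArgs false
set_option linter.unusedVariables false
set_option linter.unusedSectionVars false

namespace Cfsg.Agent.H887.IF

open QuadraticMap Cfsg.Agent.LieClassical Cfsg.Agent.LieClassical.OrthCore Cfsg.Agent.LieClassical.OrthTrans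
  Cfsg.Agent.LieClassical.OrthSimple Cfsg.Agent.AutOrth.SemiSim Cfsg.Agent.AutOrth.Gen
  Cfsg.Agent.H989.Gs.Gen
open Cfsg.Agent.UGT.U2.FOne.Orth (Four tl tl_comb siegel_eq_tl)
open Cfsg.Agent.LieClassical.SLTwoUnipotent (u l coe_u coe_l)
open Matrix (SpecialLinearGroup)

variable {F V : Type*} [Field F] [AddCommGroup V] [Module F V] {Q : QuadraticForm F V} {e₁ f₁ e₂ f₂ : V}

theorem ap_u (h : Four Q e₁ f₁ e₂ f₂) (t : F) (v : V) :
    ap (h.rhoE (u t)) v = v + polar Q e₁ v • ((-t) • f₂) - ((-t) * polar Q f₂ v) • e₁ := by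
  have h1 : ap (h.rhoE (u t)) v = h.rho (u t) v := rfl
  rw [h1, h.rho_u]
  unfold tl
  rw [polar_smul_left, smul_eq_mul]

theorem ap_l (h : Four Q e₁ f₁ e₂ f₂) (t : F) (v : V) :
    ap (h.rhoE (l t)) v = v + polar Q e₂ v • ((-t) • f₁) - ((-t) * polar Q f₁ v) • e₂ := by
  have h1 : ap (h.rhoE (l t)) v = h.rho (l t) v := rfl
  rw [h1, h.rho_l]
  unfold tl
  rw [polar_smul_left, smul_eq_mul]

/-- **the action on the 4-space of an element commuting with the long `SL₂`** -/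
theorem cent1 (h : Four Q e₁ f₁ e₂ f₂) (g : ↥(E Q)) (hg : ∀ M, g * h.rhoE M = h.rhoE M * g) :
    ∃ N, ap g e₁ = ap (h.swap.rhoE N) e₁ ∧ ap g f₁ = ap (h.swap.rhoE N) f₁ ∧ ap g e₂ = ap (h.swap.rhoE N) e₂ ∧
      ap g f₂ = ap (h.swap.rhoE N) f₂ := by
  obtain ⟨p1, p2, p3, p4, p5, p6, p7, p8, p9, p10, p11, p12, p13, p14, p15, p16⟩ := h.pols
  have hu : ∀ v, ap g (ap (h.rhoE (u 1)) v) = ap (h.rhoE (u 1)) (ap g v) := by
    intro v
    rw [← ap_mul, ← ap_mul, hg]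
  have hl : ∀ v, ap g (ap (h.rhoE (l 1)) v) = ap (h.rhoE (l 1)) (ap g v) := by
    intro v
    rw [← ap_mul, ← ap_mul, hg]
  -- `u 1 : e₂ ↦ e₂ + e₁`, `f₁ ↦ f₁ - f₂`
  have hu2 := hu e₂
  have hu1 := hu f₁
  have hl1 := hl e₁
  have hl2 := hl f₂
  rw [ap_u, ap_u] at hu2 hu1
  rw [ap_l, ap_l] at hl1 hl2
  have hg0 : ap g 0 = 0 := map_zero _
  simp only [hg0, neg_zero, p1, p2, p3, p4, p5, p6, p7, p8, p9, p10, p11, p12, p13, p14, p15, p16, ap_add, ap_sub, ap_smul, ap_neg,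
    zero_smul, one_smul, mul_one, mul_zero, neg_smul, sub_neg_eq_add, smul_neg, add_zero, sub_zero] at hu2 hu1 hl1 hl2
  obtain ⟨α, hα⟩ : ∃ α, α = polar Q f₂ (ap g e₂) := ⟨_, rfl⟩
  obtain ⟨β, hβ⟩ : ∃ β, β = -polar Q e₁ (ap g e₂) := ⟨_, rfl⟩
  obtain ⟨γ, hγ⟩ : ∃ γ, γ = -polar Q f₂ (ap g f₁) := ⟨_, rfl⟩
  obtain ⟨δ, hδ⟩ : ∃ δ, δ = polar Q e₁ (ap g f₁) := ⟨_, rfl⟩
  have g1 : ap g e₁ = α • e₁ + β • f₂ := by
    have : ap g e₁ = ap g e₂ + ap g e₁ - ap g e₂ := by abel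
    rw [this, hu2, hα, hβ]
    module
  have g4 : ap g f₂ = γ • e₁ + δ • f₂ := by
    have : ap g f₂ = ap g f₁ - (ap g f₁ + -ap g f₂) := by abel
    rw [this, hu1, hγ, hδ]
    module
  have g3 : ap g e₂ = α • e₂ + (-β) • f₁ := by
    have : ap g e₂ = ap g e₁ + ap g e₂ - ap g e₁ := by abel
    rw [this, hl1, g1]
    simp only [polar_add_right, polar_smul_right, smul_eq_mul, p1, p2, p3, p4, p5, p6, p7, p8, p9, p10, p11, p12, p13,
      p14, p15, p16]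
    module
  have g2 : ap g f₁ = δ • f₁ + (-γ) • e₂ := by
    have : ap g f₁ = ap g f₂ - (ap g f₂ + -ap g f₁) := by abel
    rw [this, hl2, g4]
    simp only [polar_add_right, polar_smul_right, smul_eq_mul, p1, p2, p3, p4, p5, p6, p7, p8, p9, p10, p11, p12, p13,
      p14, p15, p16]
    module
  have hdet : α * δ - γ * β = 1 := by
    have h5 := polar_ap g e₁ f₁
    rw [g1, g2, p5] at h5
    simp only [polar_add_right, polar_add_left, polar_smul_right, polar_smul_left, smul_eq_mul, p1, p2, p3, p4, p5, p6,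
      p7, p8, p9, p10, p11, p12, p13, p14, p15, p16] at h5
    linear_combination h5
  obtain ⟨N, hN⟩ : ∃ N : SpecialLinearGroup (Fin 2) F, N = ⟨!![α, γ; β, δ], by rw [Matrix.det_fin_two_of]; exact hdet⟩ :=
    ⟨_, rfl⟩
  have n00 : N.1 0 0 = α := by rw [hN]; rfl
  have n01 : N.1 0 1 = γ := by rw [hN]; rfl
  have n10 : N.1 1 0 = β := by rw [hN]; rfl
  have n11 : N.1 1 1 = δ := by rw [hN]; rfl
  refine ⟨N, ?_, ?_, ?_, ?_⟩
  · change _ = h.swap.rho N e₁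
    rw [g1, h.swap.rho_e1, n00, n10]
  · change _ = h.swap.rho N f₁
    rw [g2, h.swap.rho_f1, n11, n01]
  · change _ = h.swap.rho N e₂
    rw [g3, h.swap.rho_f2, n10, n00]
    abel
  · change _ = h.swap.rho N f₂
    rw [g4, h.swap.rho_e2, n01, n11]

end Cfsg.Agent.H887.IF
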