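import Cfsg.Agent.H989.Fx.OmE

/-!
# S5719, `N = 8`, minus type: the model `SL(2, q²) → Ω₄⁻` inside `E Q` (helper887)

`K = QuadraticAlgebra F d 0`, `d` a nonsquare; `FourM Q d e f a b` : `e, f` a hyperbolic pair, `Q a = -1`, `Q b = d`, all
orthogonal; `phi0 : SL(2, K) →* E Q` acts on `⟨e, f, a, b⟩`, the hermitian `2 × 2`-matrices with `Q = det`, by
`H ↦ M H Mᴴ`, trivially on the orthogonal space.
-/

set_option autoImplicit false
set_option linter.unusedSimpArgs false
set_option linter.unusedVariables false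
set_option linter.unusedSectionVars false

namespace Cfsg.Agent.H887.IF

open QuadraticMap Cfsg.Agent.LieClassical Cfsg.Agent.LieClassical.OrthCore Cfsg.Agent.LieClassical.OrthTrans
  Cfsg.Agent.LieClassical.OrthSimple Cfsg.Agent.AutOrth.SemiSim Cfsg.Agent.AutOrth.Gen
  Cfsg.Agent.H989.Gs.Gen
open Cfsg.Agent.LieClassical.SLTwoUnipotent (u l eq_top_of_u_mem_of_l_mem)
open Matrix (SpecialLinearGroup)

variable {F V : Type*} [Field F] [AddCommGroup V] [Module F V] {Q : QuadraticForm F V}

/-- a 4-space of minus type with a good basis -/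
structure FourM (Q : QuadraticForm F V) (d : F) (e f a b : V) : Prop where
  hyp : Hyp Q e f
  qa : Q a = -1
  qb : Q b = d
  ea : polar Q e a = 0
  eb : polar Q e b = 0
  fa : polar Q f a = 0
  fb : polar Q f b = 0
  ab : polar Q a b = 0

/-- the coordinates, as a hermitian matrix -/
def hp (Q : QuadraticForm F V) (d : F) (e f a b : V) : V →ₗ[F] Matrix (Fin 2) (Fin 2) (QuadraticAlgebra F d 0) where
  toFun v := !![⟨polar Q f v, 0⟩, ⟨-(polar Q a v / 2), polar Q b v / (2 * d)⟩;
    ⟨-(polar Q a v / 2), -(polar Q b v / (2 * d))⟩, ⟨polar Q e v, 0⟩]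
  map_add' v w := by
    ext i j <;> fin_cases i <;> fin_cases j <;> simp [polar_add_right] <;> ring
  map_smul' c v := by
    ext i j <;> fin_cases i <;> fin_cases j <;> simp [polar_smul_right] <;> ring

/-- the vector of a matrix -/
def bk (d : F) (e f a b : V) : Matrix (Fin 2) (Fin 2) (QuadraticAlgebra F d 0) →ₗ[F] V where
  toFun H := (H 0 0).re • e + (H 1 1).re • f + (H 0 1).re • a + (H 0 1).im • b
  map_add' H H' := by
    simp only [Matrix.add_apply, QuadraticAlgebra.re_add, QuadraticAlgebra.im_add]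
    module
  map_smul' c H := by
    simp only [Matrix.smul_apply, QuadraticAlgebra.re_smul, QuadraticAlgebra.im_smul, smul_eq_mul, RingHom.id_apply]
    module

/-- congruence -/
def cg {d : F} (M : Matrix (Fin 2) (Fin 2) (QuadraticAlgebra F d 0)) :
    Matrix (Fin 2) (Fin 2) (QuadraticAlgebra F d 0) →ₗ[F] Matrix (Fin 2) (Fin 2) (QuadraticAlgebra F d 0) where
  toFun H := M * H * M.conjTranspose
  map_add' H H' := by rw [Matrix.mul_add, Matrix.add_mul]
  map_smul' c H := by rw [Matrix.mul_smul, Matrix.smul_mul, RingHom.id_apply]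

theorem cg_apply {d : F} (M H : Matrix (Fin 2) (Fin 2) (QuadraticAlgebra F d 0)) :
    cg M H = M * H * M.conjTranspose := rfl

theorem cg_mul {d : F} (M N H : Matrix (Fin 2) (Fin 2) (QuadraticAlgebra F d 0)) : cg (M * N) H = cg M (cg N H) := by
  rw [cg_apply, cg_apply, cg_apply, Matrix.conjTranspose_mul]
  simp only [Matrix.mul_assoc]

theorem cg_herm {d : F} (M : Matrix (Fin 2) (Fin 2) (QuadraticAlgebra F d 0))
    {H : Matrix (Fin 2) (Fin 2) (QuadraticAlgebra F d 0)} (hH : H.conjTranspose = H) :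
    (cg M H).conjTranspose = cg M H := by
  rw [cg_apply, Matrix.conjTranspose_mul, Matrix.conjTranspose_mul, Matrix.conjTranspose_conjTranspose, hH,
    Matrix.mul_assoc]

theorem herm_iff {d : F} (h2 : (2 : F) ≠ 0) {H : Matrix (Fin 2) (Fin 2) (QuadraticAlgebra F d 0)} :
    H.conjTranspose = H ↔ (H 0 0).im = 0 ∧ (H 1 1).im = 0 ∧ (H 1 0).re = (H 0 1).re ∧ (H 1 0).im = -(H 0 1).im := by
  have h3 : ∀ x : F, -x = x → x = 0 := by
    intro x hx
    have h4 : (2 : F) * x = 0 := by linear_combination -hx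
    exact (mul_eq_zero.1 h4).resolve_left h2
  constructor
  · intro h
    have h00 := congrFun (congrFun h 0) 0
    have h11 := congrFun (congrFun h 1) 1
    have h10 := congrFun (congrFun h 1) 0
    rw [Matrix.conjTranspose_apply, QuadraticAlgebra.ext_iff] at h00 h11 h10
    simp only [QuadraticAlgebra.re_star, QuadraticAlgebra.im_star, zero_mul, add_zero] at h00 h11 h10
    exact ⟨h3 _ h00.2, h3 _ h11.2, h10.1.symm, h10.2.symm⟩
  · rintro ⟨k1, k2, k3, k4⟩
    ext i j <;> fin_cases i <;> fin_cases j <;> simp [Matrix.conjTranspose_apply, k1, k2, k3, k4]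

variable {d : F} {e f a b : V}

theorem hp_herm (h2 : (2 : F) ≠ 0) (v : V) : (hp Q d e f a b v).conjTranspose = hp Q d e f a b v := by
  rw [herm_iff h2]
  simp [hp]

namespace FourM

variable (h : FourM Q d e f a b) (h2 : (2 : F) ≠ 0) (hd : d ≠ 0)
include h

theorem pols : polar Q e e = 0 ∧ polar Q f f = 0 ∧ polar Q e f = 1 ∧ polar Q f e = 1 ∧ polar Q a a = -2 ∧
    polar Q b b = 2 * d ∧ polar Q e a = 0 ∧ polar Q a e = 0 ∧ polar Q e b = 0 ∧ polar Q b e = 0 ∧
    polar Q f a = 0 ∧ polar Q a f = 0 ∧ polar Q f b = 0 ∧ polar Q b f = 0 ∧ polar Q a b = 0 ∧ polar Q b a = 0 := by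
  have h3 : ∀ x : V, polar Q x x = 2 * Q x := by
    intro x
    rw [QuadraticMap.polar_self, two_nsmul, two_mul]
  exact ⟨h.hyp.polar_left, h.hyp.polar_right, h.hyp.pair, h.hyp.pair', by rw [h3, h.qa]; ring, by rw [h3, h.qb], h.ea,
    polar_zero_of_comm h.ea, h.eb, polar_zero_of_comm h.eb, h.fa, polar_zero_of_comm h.fa, h.fb,
    polar_zero_of_comm h.fb, h.ab, polar_zero_of_comm h.ab⟩

include h2 hd

theorem hp_bk {H : Matrix (Fin 2) (Fin 2) (QuadraticAlgebra F d 0)} (hH : H.conjTranspose = H) :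
    hp Q d e f a b (bk d e f a b H) = H := by
  obtain ⟨k1, k2, k3, k4⟩ := (herm_iff h2).1 hH
  obtain ⟨p1, p2, p3, p4, p5, p6, p7, p8, p9, p10, p11, p12, p13, p14, p15, p16⟩ := h.pols
  have e1 : polar Q e (bk d e f a b H) = (H 1 1).re := by
    change polar Q e ((H 0 0).re • e + (H 1 1).re • f + (H 0 1).re • a + (H 0 1).im • b) = _
    simp only [polar_add_right, polar_smul_right, smul_eq_mul, p1, p3, p7, p9]
    ring
  have e2 : polar Q f (bk d e f a b H) = (H 0 0).re := by
    change polar Q f ((H 0 0).re • e + (H 1 1).re • f + (H 0 1).re • a + (H 0 1).im • b) = _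
    simp only [polar_add_right, polar_smul_right, smul_eq_mul, p2, p4, p11, p13]
    ring
  have e3 : polar Q a (bk d e f a b H) = -2 * (H 0 1).re := by
    change polar Q a ((H 0 0).re • e + (H 1 1).re • f + (H 0 1).re • a + (H 0 1).im • b) = _
    simp only [polar_add_right, polar_smul_right, smul_eq_mul, p8, p12, p5, p15]
    ring
  have e4 : polar Q b (bk d e f a b H) = 2 * d * (H 0 1).im := by
    change polar Q b ((H 0 0).re • e + (H 1 1).re • f + (H 0 1).re • a + (H 0 1).im • b) = _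
    simp only [polar_add_right, polar_smul_right, smul_eq_mul, p10, p14, p6, p16]
    ring
  have e5 : -(-2 * (H 0 1).re / 2) = (H 0 1).re := by field_simp
  have e6 : 2 * d * (H 0 1).im / (2 * d) = (H 0 1).im := by field_simp
  change !![⟨polar Q f (bk d e f a b H), 0⟩, ⟨-(polar Q a (bk d e f a b H) / 2), polar Q b (bk d e f a b H) / (2 * d)⟩;
    ⟨-(polar Q a (bk d e f a b H) / 2), -(polar Q b (bk d e f a b H) / (2 * d))⟩, ⟨polar Q e (bk d e f a b H), 0⟩] = H
  rw [e1, e2, e3, e4, e5, e6]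
  ext i j <;> fin_cases i <;> fin_cases j <;> simp [k1, k2, k3, k4]

/-- the action -/
theorem hp_ph (M : Matrix (Fin 2) (Fin 2) (QuadraticAlgebra F d 0)) (v : V) :
    hp Q d e f a b (v - bk d e f a b (hp Q d e f a b v) + bk d e f a b (cg M (hp Q d e f a b v))) =
      cg M (hp Q d e f a b v) := by
  rw [map_add, map_sub, h.hp_bk h2 hd (hp_herm h2 v), h.hp_bk h2 hd (cg_herm M (hp_herm h2 v)), sub_self, zero_add]

end FourM

/-- the linear map of a matrix -/
def phLin (Q : QuadraticForm F V) (d : F) (e f a b : V) (M : Matrix (Fin 2) (Fin 2) (QuadraticAlgebra F d 0)) :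
    V →ₗ[F] V :=
  LinearMap.id - bk d e f a b ∘ₗ hp Q d e f a b + bk d e f a b ∘ₗ cg M ∘ₗ hp Q d e f a b

theorem phLin_apply (M : Matrix (Fin 2) (Fin 2) (QuadraticAlgebra F d 0)) (v : V) :
    phLin Q d e f a b M v = v - bk d e f a b (hp Q d e f a b v) + bk d e f a b (cg M (hp Q d e f a b v)) := rfl

theorem phLin_one : phLin Q d e f a b 1 = 1 := by
  apply LinearMap.ext
  intro v
  rw [phLin_apply, cg_apply, Matrix.one_mul, Matrix.conjTranspose_one, Matrix.mul_one]
  simp

theorem FourM.phLin_mul (h : FourM Q d e f a b) (h2 : (2 : F) ≠ 0) (hd : d ≠ 0)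
    (M N : Matrix (Fin 2) (Fin 2) (QuadraticAlgebra F d 0)) :
    phLin Q d e f a b (M * N) = phLin Q d e f a b M * phLin Q d e f a b N := by
  apply LinearMap.ext
  intro v
  rw [Module.End.mul_apply, phLin_apply, phLin_apply (v := phLin Q d e f a b N v), phLin_apply (M := N),
    h.hp_ph h2 hd, cg_mul]
  abel

section fld

variable [hF : Fact (∀ r : F, r ^ 2 ≠ d + 0 * r)]

theorem d_ne : d ≠ 0 := by
  intro h
  apply hF.out 0
  rw [h]
  ring

/-- the linear representation -/
def phi00 (h : FourM Q d e f a b) (h2 : (2 : F) ≠ 0) :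
    SpecialLinearGroup (Fin 2) (QuadraticAlgebra F d 0) →* (V ≃ₗ[F] V) :=
  (LinearMap.GeneralLinearGroup.generalLinearEquiv F V).toMonoidHom.comp
    (MonoidHom.toHomUnits
      { toFun := fun M => phLin Q d e f a b M.1
        map_one' := phLin_one
        map_mul' := fun M N => h.phLin_mul h2 d_ne M.1 N.1 })

variable (h : FourM Q d e f a b) (h2 : (2 : F) ≠ 0)

theorem phi00_apply (M : SpecialLinearGroup (Fin 2) (QuadraticAlgebra F d 0)) (v : V) :
    phi00 h h2 M v = v - bk d e f a b (hp Q d e f a b v) + bk d e f a b (cg M.1 (hp Q d e f a b v)) := rfl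

include h h2 in
theorem t_pols (t : QuadraticAlgebra F d 0) : polar Q e (t.re • a + t.im • b) = 0 ∧
    polar Q f (t.re • a + t.im • b) = 0 ∧ Q (t.re • a + t.im • b) = -t.norm ∧
    ∀ v, polar Q (t.re • a + t.im • b) v = t.re * polar Q a v + t.im * polar Q b v := by
  refine ⟨?_, ?_, ?_, ?_⟩
  · rw [polar_add_right, polar_smul_right, polar_smul_right, h.ea, h.eb]; simp
  · rw [polar_add_right, polar_smul_right, polar_smul_right, h.fa, h.fb]; simp
  · rw [Q_add, QuadraticMap.map_smul, QuadraticMap.map_smul, polar_smul_left, polar_smul_right, h.ab, h.qa, h.qb,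
      QuadraticAlgebra.norm_def]
    simp only [smul_eq_mul]
    ring
  · intro v
    rw [polar_add_left, polar_smul_left, polar_smul_left, smul_eq_mul, smul_eq_mul]

theorem phi00_u (t : QuadraticAlgebra F d 0) :
    phi00 h h2 (u t) = siegel Q e (t.re • a + t.im • b) h.hyp.left (t_pols h h2 t).1 := by
  obtain ⟨t1, t2, t3, t4⟩ := t_pols h h2 t
  have hd : d ≠ 0 := d_ne
  ext v
  rw [phi00_apply, siegel_apply, t3, t4]
  have h3 : cg (u t : SpecialLinearGroup (Fin 2) (QuadraticAlgebra F d 0)).1 (hp Q d e f a b v) =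
      hp Q d e f a b v + !![⟨-(t.re * polar Q a v + t.im * polar Q b v) + t.norm * polar Q e v, 0⟩, ⟨t.re * polar Q e v, t.im * polar Q e v⟩;
        ⟨t.re * polar Q e v, -(t.im * polar Q e v)⟩, 0] := by
    rw [cg_apply]
    ext i j <;> fin_cases i <;> fin_cases j <;>
      simp [u, hp, Matrix.mul_apply, Fin.sum_univ_two, Matrix.conjTranspose_apply, QuadraticAlgebra.norm_def] <;>
      field_simp <;> ring
  rw [h3, map_add]
  have h4 : bk d e f a b !![⟨-(t.re * polar Q a v + t.im * polar Q b v) + t.norm * polar Q e v, 0⟩, ⟨t.re * polar Q e v, t.im * polar Q e v⟩;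
        ⟨t.re * polar Q e v, -(t.im * polar Q e v)⟩, 0] =
      (-(t.re * polar Q a v + t.im * polar Q b v) + t.norm * polar Q e v) • e + (0 : F) • f +
        (t.re * polar Q e v) • a + (t.im * polar Q e v) • b := rfl
  rw [h4]
  module

theorem phi00_l (t : QuadraticAlgebra F d 0) :
    phi00 h h2 (l t) = siegel Q f ((star t).re • a + (star t).im • b) h.hyp.right (t_pols h h2 (star t)).2.1 := by
  obtain ⟨t1, t2, t3, t4⟩ := t_pols h h2 (star t)
  have hd : d ≠ 0 := d_ne
  ext v
  rw [phi00_apply, siegel_apply, t3, t4]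
  have h3 : cg (l t : SpecialLinearGroup (Fin 2) (QuadraticAlgebra F d 0)).1 (hp Q d e f a b v) =
      hp Q d e f a b v + !![0, ⟨t.re * polar Q f v, -(t.im * polar Q f v)⟩;
        ⟨t.re * polar Q f v, (t.im * polar Q f v)⟩,
        ⟨-(t.re * polar Q a v - t.im * polar Q b v) + t.norm * polar Q f v, 0⟩] := by
    rw [cg_apply]
    ext i j <;> fin_cases i <;> fin_cases j <;>
      simp [l, hp, Matrix.mul_apply, Fin.sum_univ_two, Matrix.conjTranspose_apply, QuadraticAlgebra.norm_def] <;>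
      field_simp <;> ring
  rw [h3, map_add]
  have h4 : bk d e f a b !![0, ⟨t.re * polar Q f v, -(t.im * polar Q f v)⟩;
        ⟨t.re * polar Q f v, (t.im * polar Q f v)⟩,
        ⟨-(t.re * polar Q a v - t.im * polar Q b v) + t.norm * polar Q f v, 0⟩] =
      (0 : F) • e + (-(t.re * polar Q a v - t.im * polar Q b v) + t.norm * polar Q f v) • f +
        (t.re * polar Q f v) • a + (-(t.im * polar Q f v)) • b := rfl
  rw [h4, QuadraticAlgebra.norm_star]
  simp only [QuadraticAlgebra.re_star, QuadraticAlgebra.im_star, zero_mul, add_zero]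
  module

theorem phi00_mem (M : SpecialLinearGroup (Fin 2) (QuadraticAlgebra F d 0)) : phi00 h h2 M ∈ E Q := by
  have h1 : (E Q).comap (phi00 h h2) = ⊤ := by
    apply eq_top_of_u_mem_of_l_mem
    · intro t
      rw [Subgroup.mem_comap, phi00_u]
      exact siegel_mem_E _ _
    · intro t
      rw [Subgroup.mem_comap, phi00_l]
      exact siegel_mem_E _ _
  exact Subgroup.mem_comap.1 (h1 ▸ Subgroup.mem_top M)

/-- **the homomorphism `SL(2, q²) → E Q`** -/
def phi0 : SpecialLinearGroup (Fin 2) (QuadraticAlgebra F d 0) →* ↥(E Q) := (phi00 h h2).codRestrict (E Q) (phi00_mem h h2)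

theorem ap_phi0 (M : SpecialLinearGroup (Fin 2) (QuadraticAlgebra F d 0)) (v : V) :
    ap (phi0 h h2 M) v = v - bk d e f a b (hp Q d e f a b v) + bk d e f a b (cg M.1 (hp Q d e f a b v)) := rfl

theorem phi0_u (t : QuadraticAlgebra F d 0) : phi0 h h2 (u t) = S Q e (t.re • a + t.im • b) := by
  rw [S_eq h.hyp.left (t_pols h h2 t).1]
  exact Subtype.ext (phi00_u h h2 t)

theorem phi0_l (t : QuadraticAlgebra F d 0) : phi0 h h2 (l t) = S Q f ((star t).re • a + (star t).im • b) := by
  rw [S_eq h.hyp.right (t_pols h h2 (star t)).2.1]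
  exact Subtype.ext (phi00_l h h2 t)

theorem hp_phi0 (M : SpecialLinearGroup (Fin 2) (QuadraticAlgebra F d 0)) (v : V) :
    hp Q d e f a b (ap (phi0 h h2 M) v) = cg M.1 (hp Q d e f a b v) := h.hp_ph h2 d_ne M.1 v

/-- trivial on the orthogonal space -/
theorem phi0_perp (M : SpecialLinearGroup (Fin 2) (QuadraticAlgebra F d 0)) {v : V} (h1 : polar Q e v = 0)
    (h3 : polar Q f v = 0) (h4 : polar Q a v = 0) (h5 : polar Q b v = 0) : ap (phi0 h h2 M) v = v := by
  have h6 : hp Q d e f a b v = 0 := by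
    ext i j <;> fin_cases i <;> fin_cases j <;> simp [hp, h1, h3, h4, h5]
  rw [ap_phi0, h6]
  simp

end fld

end Cfsg.Agent.H887.IF
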