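import Cfsg.Agent.H887.IF.K0
import Cfsg.Agent.H160.QSpin

/-!
# S5719, `N = 8`, minus type: kernel and range of `phi0 : SL(2, q²) → E Q` (helper887)

* `det_E`, `spin_E` : elements of `E Q` have determinant one and spinor sign one;
* `phi0_ker` : the kernel is `±1`;
* `range0` : the elements of `E Q` trivial on `{e, f, a, b}^⊥` are the elements of the range of `phi0`.
-/

set_option autoImplicit false
set_option linter.unusedSimpArgs false
set_option linter.unusedVariables false
set_option linter.unusedSectionVars false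

namespace Cfsg.Agent.H887.IF

open QuadraticMap Cfsg.Agent.LieClassical Cfsg.Agent.LieClassical.OrthCore Cfsg.Agent.LieClassical.OrthTrans
  Cfsg.Agent.LieClassical.OrthSimple Cfsg.Agent.AutOrth.SemiSim Cfsg.Agent.AutOrth.Gen
  Cfsg.Agent.H989.Gs.Gen Cfsg.Agent.H160.QSpin
open Cfsg.Agent.LieClassical.SLTwoUnipotent (u l eq_top_of_u_mem_of_l_mem)
open Matrix (SpecialLinearGroup)

variable {F V : Type*} [Field F] [AddCommGroup V] [Module F V] {Q : QuadraticForm F V}

/-! ### determinant and spinor sign -/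

theorem det_E [FiniteDimensional F V] (h2 : (2 : F) ≠ 0) (hQ : Nondeg Q) (g : ↥(E Q)) :
    LinearEquiv.det (g : V ≃ₗ[F] V) = 1 := by
  obtain ⟨g, hg⟩ := g
  change LinearEquiv.det g = 1
  unfold E at hg
  induction hg using Subgroup.closure_induction with
  | mem x hx =>
    obtain ⟨u, w, hu, hw, rfl⟩ := hx
    obtain ⟨k, hk, hk2⟩ := siegel_eq_sq h2 hu hw
    rw [hk2, map_mul, ← pow_two]
    exact det_sq hQ hk
  | one => exact map_one _
  | mul x y _ _ hx hy => rw [map_mul, hx, hy, mul_one]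
  | inv x _ hx => rw [map_inv, hx, inv_one]

theorem spin_E [Finite V] (h2 : (2 : F) ≠ 0) (g : ↥(E Q)) : spin Q ⟨(g : V ≃ₗ[F] V), E_le_O g.2⟩ = 1 := by
  obtain ⟨g, hg⟩ := g
  change spin Q ⟨g, E_le_O hg⟩ = 1
  have key : ∀ g ∈ Subgroup.closure (siegelSet Q), ∀ hg : g ∈ O Q, spin Q ⟨g, hg⟩ = 1 := by
    intro g hgc
    induction hgc using Subgroup.closure_induction with
    | mem x hx =>
      intro hxO
      obtain ⟨u, w, hu, hw, rfl⟩ := hx
      obtain ⟨k, hk, hk2⟩ := siegel_eq_sq h2 hu hw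
      have h3 : (⟨siegel Q u w hu hw, hxO⟩ : O Q) = ⟨k, hk⟩ * ⟨k, hk⟩ := Subtype.ext hk2
      rw [h3, map_mul, units_sq]
    | one =>
      intro h1
      have : (⟨1, h1⟩ : O Q) = 1 := rfl
      rw [this, map_one]
    | mul x y hx hy ihx ihy =>
      intro hxy
      have hx' : x ∈ O Q := E_le_O (by exact hx)
      have hy' : y ∈ O Q := E_le_O (by exact hy)
      have : (⟨x * y, hxy⟩ : O Q) = ⟨x, hx'⟩ * ⟨y, hy'⟩ := rfl
      rw [this, map_mul, ihx hx', ihy hy', mul_one]
    | inv x hx ihx =>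
      intro hxi
      have hx' : x ∈ O Q := E_le_O (by exact hx)
      have : (⟨x⁻¹, hxi⟩ : O Q) = ⟨x, hx'⟩⁻¹ := rfl
      rw [this, map_inv, ihx hx', inv_one]
  exact key g hg _

theorem isSquare_mul_of [Finite F] {x y : F} (hx : x ≠ 0) (hy : y ≠ 0) (h2 : (2 : F) ≠ 0) (h : IsSquare x ↔ IsSquare y) :
    IsSquare (x * y) := by
  classical
  haveI : Fintype F := Fintype.ofFinite F
  have hc : ringChar F ≠ 2 := by
    intro h3
    apply h2
    have := ringChar.Nat.cast_ringChar (R := F)
    rw [h3] at this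
    exact_mod_cast this
  have h1 : quadraticChar F (x * y) = 1 := by
    rw [map_mul]
    by_cases hs : IsSquare x
    · rw [(quadraticChar_one_iff_isSquare hx).2 hs, (quadraticChar_one_iff_isSquare hy).2 (h.1 hs), one_mul]
    · rw [quadraticChar_neg_one_iff_not_isSquare.2 hs, quadraticChar_neg_one_iff_not_isSquare.2 fun h' => hs (h.2 h')]
      norm_num
  exact (quadraticChar_one_iff_isSquare (mul_ne_zero hx hy)).1 h1

/-! ### facts about `K` -/

section KK

variable {d : F} [hF : Fact (∀ r : F, r ^ 2 ≠ d + 0 * r)]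

theorem norm_surj [Finite F] (h2 : (2 : F) ≠ 0) (c : F) : ∃ t : QuadraticAlgebra F d 0, t.norm = c := by
  classical
  haveI : Fintype F := Fintype.ofFinite F
  have hodd : Fintype.card F % 2 = 1 := by
    apply FiniteField.odd_card_of_char_ne_two
    intro h3
    apply h2
    have := ringChar.Nat.cast_ringChar (R := F)
    rw [h3] at this
    exact_mod_cast this
  have hd : d ≠ 0 := d_ne
  have hp1 : (Polynomial.X ^ 2 - Polynomial.C c : Polynomial F).degree = 2 :=
    Polynomial.degree_X_pow_sub_C (by norm_num) c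
  have hp2 : (Polynomial.C (-d) * Polynomial.X ^ 2 : Polynomial F).degree = 2 :=
    Polynomial.degree_C_mul_X_pow 2 (neg_ne_zero.2 hd)
  obtain ⟨x, y, hxy⟩ := FiniteField.exists_root_sum_quadratic hp1 hp2 hodd
  refine ⟨⟨x, y⟩, ?_⟩
  rw [QuadraticAlgebra.norm_def]
  simp at hxy
  linear_combination hxy

theorem norm_mul_star (t : QuadraticAlgebra F d 0) :
    t * star t = algebraMap F (QuadraticAlgebra F d 0) t.norm := (QuadraticAlgebra.algebraMap_norm_eq_mul_star t).symm

theorem norm_ne {t : QuadraticAlgebra F d 0} (ht : t ≠ 0) : t.norm ≠ 0 := fun h =>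
  ht (QuadraticAlgebra.norm_eq_zero_iff_eq_zero.1 h)

theorem star_ne {t : QuadraticAlgebra F d 0} (ht : t ≠ 0) : star t ≠ 0 := fun h => ht (star_eq_zero.1 h)

/-- the reflection formula -/
theorem refl_K {ν η κ : QuadraticAlgebra F d 0} {s : F} (hs : s * s = 1) (hη : η ≠ 0) (h : ν * star η = s • η) :
    κ - ((η.norm)⁻¹ * (2 * (η * star κ).re)) • η = -(s • (ν * star κ)) := by
  have h1 : η * star η = algebraMap F _ η.norm := norm_mul_star η
  have h3 : algebraMap F (QuadraticAlgebra F d 0) (2 * (η * star κ).re) = η * star κ + star η * κ := by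
    ext
    · simp
      ring
    · simp
      ring
  have h4 : star η ≠ 0 := star_ne hη
  have h5 : algebraMap F (QuadraticAlgebra F d 0) η.norm ≠ 0 := by
    rw [← h1]
    exact mul_ne_zero hη h4
  rw [Algebra.smul_def, Algebra.smul_def, map_mul, map_inv₀, h3]
  rw [Algebra.smul_def] at h
  have hss : algebraMap F (QuadraticAlgebra F d 0) s * algebraMap F (QuadraticAlgebra F d 0) s = 1 := by
    rw [← map_mul, hs, map_one]
  have h6 : (algebraMap F (QuadraticAlgebra F d 0) η.norm)⁻¹ * η = (star η)⁻¹ := by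
    rw [← h1, mul_inv, mul_comm η⁻¹, mul_assoc, inv_mul_cancel₀ hη, mul_one]
  have h7 : (star η)⁻¹ * η = algebraMap F _ s * ν := by
    have h8 : (star η)⁻¹ * η = (star η)⁻¹ * (algebraMap F _ s * (ν * star η)) := by
      congr 1
      rw [h, ← mul_assoc, hss, one_mul]
    rw [h8]
    field_simp
  calc κ - (algebraMap F (QuadraticAlgebra F d 0) η.norm)⁻¹ * (η * star κ + star η * κ) * η
      = κ - (η * star κ + star η * κ) * ((algebraMap F (QuadraticAlgebra F d 0) η.norm)⁻¹ * η) := by ring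
    _ = κ - (((star η)⁻¹ * η) * star κ + (star η * (star η)⁻¹) * κ) := by rw [h6]; ring
    _ = -(algebraMap F _ s * (ν * star κ)) := by rw [h7, mul_inv_cancel₀ h4]; ring

theorem exists_eta {ν : QuadraticAlgebra F d 0} (h2 : (2 : F) ≠ 0) (hν : ν * star ν = 1) {s : F} (hs : s = 1 ∨ s = -1) :
    ∃ η : QuadraticAlgebra F d 0, η ≠ 0 ∧ ν * star η = s • η := by
  have hss : s * s = 1 := by rcases hs with rfl | rfl <;> ring
  have key : ∀ κ : QuadraticAlgebra F d 0, ν * star (κ + s • (ν * star κ)) = s • (κ + s • (ν * star κ)) := by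
    intro κ
    have h1 : star (s • (ν * star κ)) = s • (star ν * κ) := by
      ext
      · simp
      · simp
        ring
    rw [star_add, h1, mul_add, mul_smul_comm, ← mul_assoc, hν, one_mul, smul_add, smul_smul, hss, one_smul, add_comm]
  by_cases h1 : (1 : QuadraticAlgebra F d 0) + s • (ν * star 1) = 0
  · refine ⟨QuadraticAlgebra.omega + s • (ν * star QuadraticAlgebra.omega), ?_, key _⟩
    rw [star_one, mul_one] at h1
    have h3 : s • ν = -1 := by rw [← sub_eq_zero, sub_neg_eq_add, add_comm]; exact h1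
    have h4 : s • (ν * star (QuadraticAlgebra.omega : QuadraticAlgebra F d 0)) = -star QuadraticAlgebra.omega := by
      rw [← smul_mul_assoc, h3, neg_one_mul]
    rw [h4]
    intro h5
    have h6 := congrArg QuadraticAlgebra.im h5
    simp at h6
    apply h2
    rw [← one_add_one_eq_two]
    exact h6
  · exact ⟨_, h1, key _⟩

end KK

section main

variable {d : F} {e f a b : V} [hF : Fact (∀ r : F, r ^ 2 ≠ d + 0 * r)] (h : FourM Q d e f a b) (h2 : (2 : F) ≠ 0)

theorem bk_perp (h : FourM Q d e f a b) (H : Matrix (Fin 2) (Fin 2) (QuadraticAlgebra F d 0)) {w : V}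
    (k1 : polar Q e w = 0) (k2 : polar Q f w = 0) (k3 : polar Q a w = 0) (k4 : polar Q b w = 0) :
    polar Q (bk d e f a b H) w = 0 := by
  change polar Q ((H 0 0).re • e + (H 1 1).re • f + (H 0 1).re • a + (H 0 1).im • b) w = 0
  simp only [polar_add_left, polar_smul_left, k1, k2, k3, k4, smul_zero, add_zero]

theorem hp_zero_iff (h2 : (2 : F) ≠ 0) {w : V} : hp Q d e f a b w = 0 ↔
    polar Q e w = 0 ∧ polar Q f w = 0 ∧ polar Q a w = 0 ∧ polar Q b w = 0 := by
  have hd : d ≠ 0 := d_ne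
  constructor
  · intro h0
    have h00 := congrArg QuadraticAlgebra.re (congrFun (congrFun h0 0) 0)
    have h11 := congrArg QuadraticAlgebra.re (congrFun (congrFun h0 1) 1)
    have h01 := congrFun (congrFun h0 0) 1
    have h01r := congrArg QuadraticAlgebra.re h01
    have h01i := congrArg QuadraticAlgebra.im h01
    simp [hp, h2, hd] at h00 h11 h01r h01i
    exact ⟨h11, h00, h01r, h01i⟩
  · rintro ⟨k1, k2, k3, k4⟩
    ext i j <;> fin_cases i <;> fin_cases j <;> simp [hp, k1, k2, k3, k4]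

theorem hp_sub (h : FourM Q d e f a b) (h2 : (2 : F) ≠ 0) (w : V) :
    hp Q d e f a b (w - bk d e f a b (hp Q d e f a b w)) = 0 := by
  rw [map_sub, h.hp_bk h2 d_ne (hp_herm h2 w), sub_self]

/-- two linear maps agreeing on the basis and the orthogonal space agree -/
theorem ext_U (h : FourM Q d e f a b) (h2 : (2 : F) ≠ 0) {x y : V →ₗ[F] V} (k1 : x e = y e) (k2 : x f = y f)
    (k3 : x a = y a) (k4 : x b = y b) (k5 : ∀ w, polar Q e w = 0 → polar Q f w = 0 → polar Q a w = 0 →
      polar Q b w = 0 → x w = y w) : x = y := by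
  apply LinearMap.ext
  intro v
  obtain ⟨m1, m2, m3, m4⟩ := (hp_zero_iff (Q := Q) (e := e) (f := f) (a := a) (b := b) h2).1 (hp_sub h h2 v)
  have h5 := k5 _ m1 m2 m3 m4
  have h6 : v = (v - bk d e f a b (hp Q d e f a b v)) + bk d e f a b (hp Q d e f a b v) := by abel
  rw [h6, map_add, map_add, h5]
  congr 1
  generalize hp Q d e f a b v = H
  change x ((H 0 0).re • e + (H 1 1).re • f + (H 0 1).re • a + (H 0 1).im • b) =
    y ((H 0 0).re • e + (H 1 1).re • f + (H 0 1).re • a + (H 0 1).im • b)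
  simp only [map_add, map_smul, k1, k2, k3, k4]

/-- invariance of the 4-space -/
theorem map_U (h : FourM Q d e f a b) (h2 : (2 : F) ≠ 0) (hQ : Nondeg Q) {g : ↥(E Q)}
    (hg : ∀ w, polar Q e w = 0 → polar Q f w = 0 → polar Q a w = 0 → polar Q b w = 0 → ap g w = w) {v : V}
    (hv : bk d e f a b (hp Q d e f a b v) = v) : bk d e f a b (hp Q d e f a b (ap g v)) = ap g v := by
  obtain ⟨m1, m2, m3, m4⟩ := (hp_zero_iff (Q := Q) (e := e) (f := f) (a := a) (b := b) h2).1 (hp_sub h h2 (ap g v))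
  have key : ap g v - bk d e f a b (hp Q d e f a b (ap g v)) = 0 := by
    apply hQ
    intro w
    obtain ⟨n1, n2, n3, n4⟩ := (hp_zero_iff (Q := Q) (e := e) (f := f) (a := a) (b := b) h2).1 (hp_sub h h2 w)
    have h6 : w = (w - bk d e f a b (hp Q d e f a b w)) + bk d e f a b (hp Q d e f a b w) := by abel
    rw [h6, polar_add_right]
    have h7 : polar Q (ap g v - bk d e f a b (hp Q d e f a b (ap g v))) (bk d e f a b (hp Q d e f a b w)) = 0 := by
      rw [polar_comm]
      exact bk_perp h _ m1 m2 m3 m4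
    rw [h7, add_zero, polar_sub_left, bk_perp h _ n1 n2 n3 n4, sub_zero]
    conv_lhs => rw [← hg _ n1 n2 n3 n4]
    rw [polar_ap, ← hv]
    exact bk_perp h _ n1 n2 n3 n4
  exact (sub_eq_zero.1 key).symm

theorem Q_bk (h : FourM Q d e f a b) (H : Matrix (Fin 2) (Fin 2) (QuadraticAlgebra F d 0)) :
    Q (bk d e f a b H) = (H 0 0).re * (H 1 1).re - (H 0 1).norm := by
  obtain ⟨p1, p2, p3, p4, p5, p6, p7, p8, p9, p10, p11, p12, p13, p14, p15, p16⟩ := h.pols
  change Q ((H 0 0).re • e + (H 1 1).re • f + (H 0 1).re • a + (H 0 1).im • b) = _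
  rw [QuadraticAlgebra.norm_def]
  simp only [Q_add, QuadraticMap.map_smul, polar_add_left, polar_smul_left, polar_smul_right, smul_eq_mul, h.hyp.left,
    h.hyp.right, h.qa, h.qb, p3, p7, p9, p11, p13, p15]
  ring

theorem bk_e (h : FourM Q d e f a b) (h2 : (2 : F) ≠ 0) : hp Q d e f a b e = !![1, 0; 0, 0] := by
  obtain ⟨p1, p2, p3, p4, p5, p6, p7, p8, p9, p10, p11, p12, p13, p14, p15, p16⟩ := h.pols
  ext i j <;> fin_cases i <;> fin_cases j <;> simp [hp, p1, p4, p8, p10, QuadraticAlgebra.re_one, QuadraticAlgebra.im_one]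

theorem bk_f (h : FourM Q d e f a b) (h2 : (2 : F) ≠ 0) : hp Q d e f a b f = !![0, 0; 0, 1] := by
  obtain ⟨p1, p2, p3, p4, p5, p6, p7, p8, p9, p10, p11, p12, p13, p14, p15, p16⟩ := h.pols
  ext i j <;> fin_cases i <;> fin_cases j <;> simp [hp, p2, p3, p12, p14, QuadraticAlgebra.re_one, QuadraticAlgebra.im_one]

theorem hp_t (h : FourM Q d e f a b) (h2 : (2 : F) ≠ 0) (t : QuadraticAlgebra F d 0) :
    hp Q d e f a b (t.re • a + t.im • b) = !![0, t; star t, 0] := by
  obtain ⟨p1, p2, p3, p4, p5, p6, p7, p8, p9, p10, p11, p12, p13, p14, p15, p16⟩ := h.pols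
  have hd : d ≠ 0 := d_ne
  ext i j <;> fin_cases i <;> fin_cases j <;>
    simp [hp, polar_add_right, polar_smul_right, p5, p6, p7, p9, p11, p13, p15, p16] <;> field_simp

theorem bk_mat (x y : F) (t t' : QuadraticAlgebra F d 0) : bk d e f a b !![algebraMap F _ x, t; t', algebraMap F _ y] =
    x • e + y • f + t.re • a + t.im • b := rfl

/-- rank one hermitian matrices -/
theorem cg_rank1 {d : F} (M : Matrix (Fin 2) (Fin 2) (QuadraticAlgebra F d 0)) (x y : QuadraticAlgebra F d 0) :
    cg M !![x * star x, x * star y; y * star x, y * star y] =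
      !![(M 0 0 * x + M 0 1 * y) * star (M 0 0 * x + M 0 1 * y), (M 0 0 * x + M 0 1 * y) * star (M 1 0 * x + M 1 1 * y);
        (M 1 0 * x + M 1 1 * y) * star (M 0 0 * x + M 0 1 * y),
        (M 1 0 * x + M 1 1 * y) * star (M 1 0 * x + M 1 1 * y)] := by
  rw [cg_apply]
  ext1 i j
  fin_cases i <;> fin_cases j <;>
    simp only [Matrix.mul_apply, Fin.sum_univ_two, Matrix.conjTranspose_apply, Matrix.of_apply, Matrix.cons_val',
      Matrix.cons_val_zero, Matrix.cons_val_one, Matrix.cons_val_fin_one, Fin.zero_eta, Fin.mk_one, Fin.isValue,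
      star_add, star_mul'] <;> ring

/-- `SL(2, K)` is transitive on the nonzero vectors of `K²` -/
theorem exists_sl {K : Type*} [Field K] {x y : K} (hxy : x ≠ 0 ∨ y ≠ 0) : ∃ M : SpecialLinearGroup (Fin 2) K,
    M.1 0 0 * x + M.1 0 1 * y = 1 ∧ M.1 1 0 * x + M.1 1 1 * y = 0 := by
  by_cases hx : x = 0
  · have hy : y ≠ 0 := by tauto
    refine ⟨⟨!![0, y⁻¹; -y, 0], by rw [Matrix.det_fin_two_of]; field_simp; ring⟩, ?_, ?_⟩
    · simp [hy]
    · simp [hx]
  · refine ⟨⟨!![x⁻¹, 0; -y, x], by rw [Matrix.det_fin_two_of]; field_simp; ring⟩, ?_, ?_⟩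
    · simp [hx]
    · simp; ring

/-- a singular vector of the 4-space has rank one -/
theorem exists_vec [Finite F] (h : FourM Q d e f a b) (h2 : (2 : F) ≠ 0) {v : V} (hv0 : v ≠ 0) (hv : Q v = 0)
    (hvU : bk d e f a b (hp Q d e f a b v) = v) : ∃ x y : QuadraticAlgebra F d 0, (x ≠ 0 ∨ y ≠ 0) ∧
      hp Q d e f a b v = !![x * star x, x * star y; y * star x, y * star y] := by
  obtain ⟨H, hH⟩ : ∃ H, H = hp Q d e f a b v := ⟨_, rfl⟩
  have hHh : H.conjTranspose = H := by rw [hH]; exact hp_herm h2 v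
  obtain ⟨k1, k2, k3, k4⟩ := (herm_iff h2).1 hHh
  have hQ0 : (H 0 0).re * (H 1 1).re = (H 0 1).norm := by
    have := Q_bk h H
    rw [hH, hvU, hv] at this
    rw [hH]
    linear_combination -this
  rw [← hH]
  have hH0 : H ≠ 0 := by
    intro h0
    apply hv0
    rw [← hvU, ← hH, h0, map_zero]
  have e10 : H 1 0 = star (H 0 1) := by
    ext
    · simp [k3]
    · simp [k4]
  have e00 : H 0 0 = algebraMap F _ (H 0 0).re := by
    ext
    · simp
    · simp [k1]
  have e11 : H 1 1 = algebraMap F _ (H 1 1).re := by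
    ext
    · simp
    · simp [k2]
  by_cases hx : (H 0 0).re = 0
  · rw [hx, zero_mul] at hQ0
    have h01 : H 0 1 = 0 := QuadraticAlgebra.norm_eq_zero_iff_eq_zero.1 hQ0.symm
    have hy : (H 1 1).re ≠ 0 := by
      intro hy
      apply hH0
      ext1 i j
      fin_cases i <;> fin_cases j
      · change H 0 0 = 0; rw [e00, hx, map_zero]
      · exact h01
      · change H 1 0 = 0; rw [e10, h01, star_zero]
      · change H 1 1 = 0; rw [e11, hy, map_zero]
    obtain ⟨m, hm⟩ := norm_surj (d := d) h2 (H 1 1).re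
    have hmm : m * star m = H 1 1 := by rw [norm_mul_star, hm, ← e11]
    refine ⟨0, m, Or.inr fun hm0 => hy ?_, ?_⟩
    · rw [← hm, hm0, QuadraticAlgebra.norm_zero]
    · ext1 i j
      fin_cases i <;> fin_cases j
      · change H 0 0 = 0 * star 0; rw [e00, hx, map_zero, zero_mul]
      · change H 0 1 = 0 * star m; rw [h01, zero_mul]
      · change H 1 0 = m * star 0; rw [e10, h01, star_zero, mul_zero]
      · change H 1 1 = m * star m; rw [hmm]
  · obtain ⟨m, hm⟩ := norm_surj (d := d) h2 (H 0 0).re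
    have hmm : m * star m = H 0 0 := by rw [norm_mul_star, hm, ← e00]
    have hm0 : m ≠ 0 := by
      intro hm0
      apply hx
      rw [← hm, hm0, QuadraticAlgebra.norm_zero]
    have hsm0 : star m ≠ 0 := star_ne hm0
    refine ⟨m, star (H 0 1) / star m, Or.inl hm0, ?_⟩
    have h3 : star (star (H 0 1) / star m) = H 0 1 / m := by
      rw [star_div₀, star_star, star_star]
    have h4 : star (H 0 1) * H 0 1 = H 1 1 * H 0 0 := by
      rw [mul_comm, norm_mul_star, ← hQ0, map_mul, mul_comm, ← e00, ← e11]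
    ext1 i j
    fin_cases i <;> fin_cases j
    · change H 0 0 = m * star m; rw [hmm]
    · change H 0 1 = m * star (star (H 0 1) / star m)
      rw [h3]
      field_simp
    · change H 1 0 = star (H 0 1) / star m * star m
      rw [e10]
      field_simp
    · change H 1 1 = star (H 0 1) / star m * star (star (H 0 1) / star m)
      rw [h3, div_mul_div_comm, h4, mul_comm (star m), hmm]
      have h00 : H 0 0 ≠ 0 := by rw [← hmm]; exact mul_ne_zero hm0 hsm0
      field_simp

/-- **transitivity on the singular vectors of the 4-space** -/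
theorem exists_move0 [Finite F] {v : V} (hv0 : v ≠ 0) (hv : Q v = 0) (hvU : bk d e f a b (hp Q d e f a b v) = v) :
    ∃ M, ap (phi0 h h2 M) v = e := by
  obtain ⟨x, y, hxy, hH⟩ := exists_vec h h2 hv0 hv hvU
  obtain ⟨M, hM0, hM1⟩ := exists_sl hxy
  refine ⟨M, ?_⟩
  rw [ap_phi0, hvU, sub_self, zero_add, hH, cg_rank1, hM0, hM1]
  change ((1 * star 1 : QuadraticAlgebra F d 0)).re • e + ((0 * star 0 : QuadraticAlgebra F d 0)).re • f +
    ((1 * star 0 : QuadraticAlgebra F d 0)).re • a + ((1 * star 0 : QuadraticAlgebra F d 0)).im • b = e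
  simp [QuadraticAlgebra.re_one]

end main

end Cfsg.Agent.H887.IF
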