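import Cfsg.Agent.H887.IF.K0b

/-!
# S5719, `N = 8`, minus type: kernel of `phi0`, existence of the model (helper887)
-/

set_option autoImplicit false
set_option linter.unusedSimpArgs false
set_option linter.unusedVariables false
set_option linter.unusedSectionVars false

namespace Cfsg.Agent.H887.IF

open QuadraticMap Cfsg.Agent.LieClassical Cfsg.Agent.LieClassical.OrthCore Cfsg.Agent.LieClassical.OrthTrans
  Cfsg.Agent.LieClassical.OrthSimple Cfsg.Agent.AutOrth.SemiSim Cfsg.Agent.AutOrth.Gen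
  Cfsg.Agent.H989.Gs.Gen
open Cfsg.Agent.UGT.U2.FOne.Orth (Four)
open Matrix (SpecialLinearGroup)

universe u v

section ker

variable {F V : Type*} [Field F] [AddCommGroup V] [Module F V] {Q : QuadraticForm F V}
variable {d : F} {e f a b : V} [hF : Fact (∀ r : F, r ^ 2 ≠ d + 0 * r)] (h : FourM Q d e f a b) (h2 : (2 : F) ≠ 0)

theorem phi0_neg_one : phi0 h h2 (-1) = 1 := by
  apply ext_ap
  intro v
  rw [ap_phi0, ap_one]
  have h1 : cg (-1 : SpecialLinearGroup (Fin 2) (QuadraticAlgebra F d 0)).1 (hp Q d e f a b v) = hp Q d e f a b v := by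
    rw [cg_apply]
    have h3 : (-1 : SpecialLinearGroup (Fin 2) (QuadraticAlgebra F d 0)).1 = -1 := by
      ext i j <;> simp
    rw [h3, Matrix.conjTranspose_neg, Matrix.conjTranspose_one]
    simp
  rw [h1]
  abel

theorem phi0_ker {M : SpecialLinearGroup (Fin 2) (QuadraticAlgebra F d 0)} (hM : phi0 h h2 M = 1) : M = 1 ∨ M = -1 := by
  have key : ∀ v, cg M.1 (hp Q d e f a b v) = hp Q d e f a b v := by
    intro v
    rw [← hp_phi0 h h2, hM, ap_one]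
  have he := key e
  have hf := key f
  have ha := key ((1 : QuadraticAlgebra F d 0).re • a + (1 : QuadraticAlgebra F d 0).im • b)
  rw [bk_e h h2] at he
  rw [bk_f h h2] at hf
  rw [hp_t h h2] at ha
  have hdet : M.1 0 0 * M.1 1 1 - M.1 0 1 * M.1 1 0 = 1 := by
    have := M.2
    rwa [Matrix.det_fin_two] at this
  have e11 := congrFun (congrFun he 1) 1
  have f00 := congrFun (congrFun hf 0) 0
  have e00 := congrFun (congrFun he 0) 0
  have a01 := congrFun (congrFun ha 0) 1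
  simp [cg_apply, Matrix.mul_apply, Fin.sum_univ_two, Matrix.conjTranspose_apply] at e11 f00 e00 a01
  have m10 : M.1 1 0 = 0 := e11
  have m01 : M.1 0 1 = 0 := f00
  rw [m10, m01, zero_mul, sub_zero] at hdet
  have hα : M.1 0 0 ≠ 0 := fun h0 => by rw [h0, zero_mul] at hdet; exact zero_ne_one hdet
  have hδ : M.1 1 1 = star (M.1 0 0) := mul_left_cancel₀ hα (hdet.trans e00.symm)
  rw [m01, zero_mul, zero_add, hδ, star_star] at a01
  rcases mul_self_eq_one_iff.1 a01 with h3 | h3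
  · left
    ext1 i j
    fin_cases i <;> fin_cases j
    · exact h3
    · exact m01
    · exact m10
    · change M.1 1 1 = 1
      rw [hδ, h3, star_one]
  · right
    ext1 i j
    fin_cases i <;> fin_cases j
    · change M.1 0 0 = (-1 : Matrix (Fin 2) (Fin 2) (QuadraticAlgebra F d 0)) 0 0
      rw [h3]; simp
    · change M.1 0 1 = (-1 : Matrix (Fin 2) (Fin 2) (QuadraticAlgebra F d 0)) 0 1
      rw [m01]; simp
    · change M.1 1 0 = (-1 : Matrix (Fin 2) (Fin 2) (QuadraticAlgebra F d 0)) 1 0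
      rw [m10]; simp
    · change M.1 1 1 = (-1 : Matrix (Fin 2) (Fin 2) (QuadraticAlgebra F d 0)) 1 1
      rw [hδ, h3, star_neg, star_one]; simp

end ker

section ex

variable {F : Type u} {V : Type v} [Field F] [AddCommGroup V] [Module F V] {Q : QuadraticForm F V}

/-- `v` is orthogonal to the four vectors -/
def Pf (Q : QuadraticForm F V) (e₁ f₁ e₂ f₂ v : V) : Prop :=
  polar Q e₁ v = 0 ∧ polar Q f₁ v = 0 ∧ polar Q e₂ v = 0 ∧ polar Q f₂ v = 0

/-- a hyperbolic pair orthogonal to a four -/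
theorem exists_hyp_perp [Finite F] [FiniteDimensional F V] (hQ : Nondeg Q) {e₁ f₁ e₂ f₂ : V} (h : Four Q e₁ f₁ e₂ f₂)
    (h7 : 7 ≤ Module.finrank F V) : ∃ e f, Hyp Q e f ∧ Pf Q e₁ f₁ e₂ f₂ e ∧ Pf Q e₁ f₁ e₂ f₂ f := by
  obtain ⟨p1, p2, p3, p4, p5, p6, p7, p8, p9, p10, p11, p12, p13, p14, p15, p16⟩ := h.pols
  obtain ⟨e, he0, he, hei⟩ := Cfsg.Agent.LieClassical.OrthFinite.exists_sing_perp (Q := Q) ![e₁, f₁, e₂, f₂] (by omega)
  have hePf : Pf Q e₁ f₁ e₂ f₂ e := ⟨hei 0, hei 1, hei 2, hei 3⟩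
  obtain ⟨w0, hw0⟩ : ∃ w, polar Q e w ≠ 0 := by
    by_contra hcon
    push Not at hcon
    exact he0 (hQ e hcon)
  obtain ⟨q1, q2, q3, q4⟩ := hePf
  obtain ⟨w, hw⟩ : ∃ w, w = w0 - (polar Q f₁ w0 • e₁ + polar Q e₁ w0 • f₁ + polar Q f₂ w0 • e₂ + polar Q e₂ w0 • f₂) :=
    ⟨_, rfl⟩
  have hwP : Pf Q e₁ f₁ e₂ f₂ w := by
    refine ⟨?_, ?_, ?_, ?_⟩
    all_goals
      rw [hw]
      simp only [polar_sub_right, polar_add_right, polar_smul_right, smul_eq_mul, p1, p2, p3, p4, p5, p6, p7, p8, p9,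
        p10, p11, p12, p13, p14, p15, p16]
      ring
  have hew : polar Q e w = polar Q e w0 := by
    rw [hw]
    simp only [polar_sub_right, polar_add_right, polar_smul_right, smul_eq_mul, polar_comm Q e e₁, polar_comm Q e f₁,
      polar_comm Q e e₂, polar_comm Q e f₂, q1, q2, q3, q4]
    ring
  have hew0 : polar Q e w ≠ 0 := by rw [hew]; exact hw0
  obtain ⟨w1, hw1⟩ : ∃ w1, w1 = (polar Q e w)⁻¹ • w := ⟨_, rfl⟩
  have hew1 : polar Q e w1 = 1 := by rw [hw1, polar_smul_right, smul_eq_mul, inv_mul_cancel₀ hew0]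
  have hw1P : Pf Q e₁ f₁ e₂ f₂ w1 := by
    obtain ⟨m1, m2, m3, m4⟩ := hwP
    refine ⟨?_, ?_, ?_, ?_⟩ <;> rw [hw1, polar_smul_right] <;> simp [m1, m2, m3, m4]
  have hee : polar Q e e = 0 := by
    rw [QuadraticMap.polar_self, he, smul_zero]
  refine ⟨e, w1 - Q w1 • e, ⟨he, ?_, ?_⟩, ⟨q1, q2, q3, q4⟩, ?_⟩
  · have : w1 - Q w1 • e = w1 + (-(Q w1)) • e := by module
    rw [this, Q_add, QuadraticMap.map_smul, he, polar_smul_right, polar_comm Q w1 e, hew1]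
    simp
  · rw [polar_sub_right, polar_smul_right, hew1, hee]
    simp
  · obtain ⟨m1, m2, m3, m4⟩ := hw1P
    refine ⟨?_, ?_, ?_, ?_⟩ <;> rw [polar_sub_right, polar_smul_right] <;> simp [m1, m2, m3, m4, q1, q2, q3, q4]

/-- **existence of the good basis of the orthogonal space** -/
theorem exists_fourM [Finite F] [FiniteDimensional F V] (h2 : (2 : F) ≠ 0) (hQ : Nondeg Q) {e₁ f₁ e₂ f₂ : V}
    (h : Four Q e₁ f₁ e₂ f₂) (h8 : Module.finrank F V = 8)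
    (hmin : ∀ e f, Hyp Q e f → Pf Q e₁ f₁ e₂ f₂ e → Pf Q e₁ f₁ e₂ f₂ f → ∀ v, Pf Q e₁ f₁ e₂ f₂ v → polar Q e v = 0 →
      polar Q f v = 0 → Q v = 0 → v = 0) :
    ∃ (d : F) (e f a b : V), (∀ r : F, r ^ 2 ≠ d + 0 * r) ∧ FourM Q d e f a b ∧ Pf Q e₁ f₁ e₂ f₂ e ∧
      Pf Q e₁ f₁ e₂ f₂ f ∧ Pf Q e₁ f₁ e₂ f₂ a ∧ Pf Q e₁ f₁ e₂ f₂ b := by
  classical
  haveI : Fintype F := Fintype.ofFinite F
  obtain ⟨e, f, hef, he, hf⟩ := exists_hyp_perp hQ h (by omega)
  -- the anisotropic plane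
  obtain ⟨a0, ha00, ha0⟩ := exists_perp_ne (Q := Q) ![e₁, f₁, e₂, f₂, e, f] (by omega)
  have ha0P : Pf Q e₁ f₁ e₂ f₂ a0 := ⟨ha0 0, ha0 1, ha0 2, ha0 3⟩
  have ha0e : polar Q e a0 = 0 := ha0 4
  have ha0f : polar Q f a0 = 0 := ha0 5
  obtain ⟨b0, hb00, hb0⟩ := exists_perp_ne (Q := Q) ![e₁, f₁, e₂, f₂, e, f, a0] (by omega)
  have hb0P : Pf Q e₁ f₁ e₂ f₂ b0 := ⟨hb0 0, hb0 1, hb0 2, hb0 3⟩
  have hb0e : polar Q e b0 = 0 := hb0 4
  have hb0f : polar Q f b0 = 0 := hb0 5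
  have hab0 : polar Q a0 b0 = 0 := hb0 6
  have hα : Q a0 ≠ 0 := fun h0 => ha00 (hmin e f hef he hf a0 ha0P ha0e ha0f h0)
  have hβ : Q b0 ≠ 0 := fun h0 => hb00 (hmin e f hef he hf b0 hb0P hb0e hb0f h0)
  have hodd : Fintype.card F % 2 = 1 := by
    apply FiniteField.odd_card_of_char_ne_two
    intro h3
    apply h2
    have := ringChar.Nat.cast_ringChar (R := F)
    rw [h3] at this
    exact_mod_cast this
  have hp1 : (Polynomial.C (Q a0) * Polynomial.X ^ 2 + Polynomial.C 1 : Polynomial F).degree = 2 := by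
    rw [Polynomial.degree_add_C (by rw [Polynomial.degree_C_mul_X_pow 2 hα]; norm_num),
      Polynomial.degree_C_mul_X_pow 2 hα]
    rfl
  have hp2 : (Polynomial.C (Q b0) * Polynomial.X ^ 2 : Polynomial F).degree = 2 :=
    Polynomial.degree_C_mul_X_pow 2 hβ
  obtain ⟨x, y, hxy⟩ := FiniteField.exists_root_sum_quadratic hp1 hp2 hodd
  have hxy' : x * x * Q a0 + y * y * Q b0 = -1 := by
    simp at hxy
    linear_combination hxy
  obtain ⟨a, ha⟩ : ∃ a, a = x • a0 + y • b0 := ⟨_, rfl⟩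
  have hQa : Q a = -1 := by
    rw [ha, Q_add, QuadraticMap.map_smul, QuadraticMap.map_smul, polar_smul_left, polar_smul_right, hab0]
    simp only [smul_eq_mul, mul_zero, add_zero]
    exact hxy'
  have haP : Pf Q e₁ f₁ e₂ f₂ a := by
    obtain ⟨m1, m2, m3, m4⟩ := ha0P
    obtain ⟨n1, n2, n3, n4⟩ := hb0P
    refine ⟨?_, ?_, ?_, ?_⟩ <;> rw [ha, polar_add_right, polar_smul_right, polar_smul_right] <;>
      simp [m1, m2, m3, m4, n1, n2, n3, n4]
  have hae : polar Q e a = 0 := by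
    rw [ha, polar_add_right, polar_smul_right, polar_smul_right, ha0e, hb0e]; simp
  have haf : polar Q f a = 0 := by
    rw [ha, polar_add_right, polar_smul_right, polar_smul_right, ha0f, hb0f]; simp
  obtain ⟨b, hb00', hb⟩ := exists_perp_ne (Q := Q) ![e₁, f₁, e₂, f₂, e, f, a] (by omega)
  have hbP : Pf Q e₁ f₁ e₂ f₂ b := ⟨hb 0, hb 1, hb 2, hb 3⟩
  have hbe : polar Q e b = 0 := hb 4
  have hbf : polar Q f b = 0 := hb 5
  have hab : polar Q a b = 0 := hb 6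
  have hd : Q b ≠ 0 := fun h0 => hb00' (hmin e f hef he hf b hbP hbe hbf h0)
  refine ⟨Q b, e, f, a, b, ?_, ⟨hef, hQa, rfl, hae, hbe, haf, hbf, hab⟩, he, hf, haP, hbP⟩
  intro r hr
  rw [zero_mul, add_zero] at hr
  have hv : r • a + b = 0 := by
    refine hmin e f hef he hf _ ?_ ?_ ?_ ?_
    · obtain ⟨m1, m2, m3, m4⟩ := haP
      obtain ⟨n1, n2, n3, n4⟩ := hbP
      refine ⟨?_, ?_, ?_, ?_⟩ <;> rw [polar_add_right, polar_smul_right] <;> simp [m1, m2, m3, m4, n1, n2, n3, n4]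
    · rw [polar_add_right, polar_smul_right, hae, hbe]; simp
    · rw [polar_add_right, polar_smul_right, haf, hbf]; simp
    · rw [Q_add, QuadraticMap.map_smul, polar_smul_left, hab, hQa, ← hr]
      simp only [smul_eq_mul]
      ring
  have h5 : polar Q a (r • a + b) = 0 := by rw [hv]; simp
  rw [polar_add_right, polar_smul_right, hab, QuadraticMap.polar_self, hQa] at h5
  have h6 : (2 : F) * r = 0 := by
    simp at h5
    rcases h5 with h5 | h5
    · rw [h5, mul_zero]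
    · exact absurd h5 h2
  have h7 : r = 0 := (mul_eq_zero.1 h6).resolve_left h2
  apply hd
  rw [← hr, h7]
  ring

/-- **(R3)** -/
theorem exists_phi0 [Finite F] [FiniteDimensional F V] (h2 : (2 : F) ≠ 0) (hQ : Nondeg Q) {e₁ f₁ e₂ f₂ : V}
    (h : Four Q e₁ f₁ e₂ f₂) (h8 : Module.finrank F V = 8)
    (hmin : ∀ e f, Hyp Q e f → Pf Q e₁ f₁ e₂ f₂ e → Pf Q e₁ f₁ e₂ f₂ f → ∀ v, Pf Q e₁ f₁ e₂ f₂ v → polar Q e v = 0 →
      polar Q f v = 0 → Q v = 0 → v = 0) :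
    ∃ (K : Type u) (_ : Field K) (_ : Fintype K), Nat.card K = Nat.card F ^ 2 ∧
      ∃ φ : SpecialLinearGroup (Fin 2) K →* ↥(E Q),
        (∀ y, ap (φ y) e₁ = e₁ ∧ ap (φ y) f₁ = f₁ ∧ ap (φ y) e₂ = e₂ ∧ ap (φ y) f₂ = f₂) ∧ φ (-1) = 1 ∧
        ∀ y, φ y = 1 → y = 1 ∨ y = -1 := by
  obtain ⟨d, e, f, a, b, hd, hM, he, hf, ha, hb⟩ := exists_fourM h2 hQ h h8 hmin
  haveI : Fact (∀ r : F, r ^ 2 ≠ d + 0 * r) := ⟨hd⟩
  haveI : Finite (QuadraticAlgebra F d 0) := Finite.of_equiv _ (QuadraticAlgebra.equivProd d 0).symm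
  refine ⟨QuadraticAlgebra F d 0, inferInstance, Fintype.ofFinite _, ?_, phi0 hM h2, ?_, phi0_neg_one hM h2,
    fun y hy => phi0_ker hM h2 hy⟩
  · rw [Nat.card_congr (QuadraticAlgebra.equivProd d 0), Nat.card_prod, pow_two]
  · intro y
    obtain ⟨a1, a2, a3, a4⟩ := he
    obtain ⟨b1, b2, b3, b4⟩ := hf
    obtain ⟨c1, c2, c3, c4⟩ := ha
    obtain ⟨d1, d2, d3, d4⟩ := hb
    refine ⟨phi0_perp hM h2 y ?_ ?_ ?_ ?_, phi0_perp hM h2 y ?_ ?_ ?_ ?_, phi0_perp hM h2 y ?_ ?_ ?_ ?_,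
      phi0_perp hM h2 y ?_ ?_ ?_ ?_⟩ <;> rw [polar_comm] <;> assumption

end ex

end Cfsg.Agent.H887.IF
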